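import Mathlib
import Cfsg.Agent.Lib.Helper49.SAF.Iface

/-!
# SAF (S4025), package [LIN]: linearisation of the conjugation action on `Q`
-/

set_option autoImplicit false

universe u v

namespace Cfsg.Agent.Lib.Helper74.SAF

open Cfsg.Agent.Lib.Helper49.SAFI

/-- an additive automorphism of a `ZMod p`-module as a linear equivalence -/
def linOf {p : ℕ} {A : Type v} [AddCommGroup A] [Module (ZMod p) A] (e : A ≃+ A) :
    A ≃ₗ[ZMod p] A :=
  { e with map_smul' := fun c x => ZMod.map_smul e c x }

theorem linOf_apply {p : ℕ} {A : Type v} [AddCommGroup A] [Module (ZMod p) A] (e : A ≃+ A)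
    (x : A) : (linOf e : A ≃ₗ[ZMod p] A) x = e x := rfl

/-- the additive commutative group structure on `Additive Q` for a commutative subgroup -/
@[reducible] def addCommGroupOf {N : Type v} [Group N] (Q : Subgroup N)
    (hcomm : ∀ x ∈ Q, ∀ y ∈ Q, x * y = y * x) : AddCommGroup (Additive ↥Q) :=
  { (inferInstance : AddGroup (Additive ↥Q)) with
    add_comm := fun x y =>
      congrArg Additive.ofMul
        (Subtype.ext (hcomm _ (Additive.toMul x).2 _ (Additive.toMul y).2)) }

theorem lin_generic {p : ℕ} {N : Type v} [Group N] (Q : Subgroup N) [Q.Normal]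
    {A : Type v} [AddCommGroup A] [Module (ZMod p) A] (ψ : ↥Q ≃ A)
    (hadd : ∀ x y : ↥Q, ψ (x * y) = ψ x + ψ y) :
    ∃ ρ : N →* (A ≃ₗ[ZMod p] A),
      ∀ (g : N) (x : ↥Q), ρ g (ψ x) = ψ (MulAut.conjNormal g x) := by
  have hsymm : ∀ a b : A, ψ.symm (a + b) = ψ.symm a * ψ.symm b := by
    intro a b
    apply ψ.injective
    rw [hadd, Equiv.apply_symm_apply, Equiv.apply_symm_apply, Equiv.apply_symm_apply]
  let E : N → (A ≃+ A) := fun g =>
    { toFun := fun x => ψ (MulAut.conjNormal g (ψ.symm x))
      invFun := fun x => ψ (MulAut.conjNormal g⁻¹ (ψ.symm x))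
      left_inv := by
        intro x
        show ψ (MulAut.conjNormal g⁻¹ (ψ.symm (ψ (MulAut.conjNormal g (ψ.symm x))))) = x
        rw [Equiv.symm_apply_apply, ← MulAut.mul_apply, ← map_mul, inv_mul_cancel, map_one,
          MulAut.one_apply, Equiv.apply_symm_apply]
      right_inv := by
        intro x
        show ψ (MulAut.conjNormal g (ψ.symm (ψ (MulAut.conjNormal g⁻¹ (ψ.symm x))))) = x
        rw [Equiv.symm_apply_apply, ← MulAut.mul_apply, ← map_mul, mul_inv_cancel, map_one,
          MulAut.one_apply, Equiv.apply_symm_apply]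
      map_add' := by
        intro x y
        show ψ (MulAut.conjNormal g (ψ.symm (x + y))) =
          ψ (MulAut.conjNormal g (ψ.symm x)) + ψ (MulAut.conjNormal g (ψ.symm y))
        rw [hsymm, map_mul, hadd] }
  have hE : ∀ (g : N) (x : A), E g x = ψ (MulAut.conjNormal g (ψ.symm x)) := fun g x => rfl
  refine ⟨{ toFun := fun g => linOf (E g), map_one' := ?_, map_mul' := ?_ }, ?_⟩
  · apply LinearEquiv.ext
    intro x
    rw [linOf_apply, hE, map_one, MulAut.one_apply, Equiv.apply_symm_apply]
    rfl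
  · intro g h
    apply LinearEquiv.ext
    intro x
    rw [LinearEquiv.mul_apply, linOf_apply, linOf_apply, linOf_apply, hE, hE, hE, map_mul,
      MulAut.mul_apply, Equiv.symm_apply_apply]
  · intro g x
    show linOf (E g) (ψ x) = _
    rw [linOf_apply, hE, Equiv.symm_apply_apply]

/-- [LIN] -/
theorem pkgLin : PkgLin.{v} := by
  intro p n _ N _ _ Q hS
  haveI := hS.normal
  have hexp' : ∀ x : Additive ↥Q, p • x = 0 := by
    intro x
    have h1 : (Additive.toMul x) ^ p = 1 := by
      apply Subtype.ext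
      have h2 := hS.exp _ (Additive.toMul x).2
      simpa using h2
    exact congrArg Additive.ofMul h1
  obtain ⟨ρ, hρ⟩ := @lin_generic p N _ Q _ (Additive ↥Q) (addCommGroupOf Q hS.comm)
    (@AddCommGroup.zmodModule p (Additive ↥Q) (addCommGroupOf Q hS.comm) hexp') Additive.ofMul
    (fun x y => rfl)
  refine ⟨Additive ↥Q, addCommGroupOf Q hS.comm,
    @AddCommGroup.zmodModule p (Additive ↥Q) (addCommGroupOf Q hS.comm) hexp', inferInstance,
    Additive.ofMul, ρ, ?_, ?_⟩
  · intro x y
    rfl
  · intro g x h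
    rw [hρ]
    rfl

end Cfsg.Agent.Lib.Helper74.SAF
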