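import Mathlib
import Cfsg.Agent.Lib.Helper49.SAF.Iface

/-!
# SAF (S4025), tool [CNT2]: the number of additive subgroups of order `p ^ 2` of a finite
`ZMod p`-module of order `p ^ n`
-/

set_option autoImplicit false

universe u v

namespace Cfsg.Agent.Lib.Helper74.SAF

open Cfsg.Agent.Lib.Helper49.SAFI

section

variable {p : ℕ} [Fact p.Prime] {V : Type u} [AddCommGroup V] [Module (ZMod p) V] [Finite V]

/-- the number of linearly independent pairs -/
theorem card_li_pairs {m : ℕ} (hfr : Module.finrank (ZMod p) V = m) (hm : 2 ≤ m) :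
    Nat.card {s : Fin 2 → V // LinearIndependent (ZMod p) s} = (p ^ m - 1) * (p ^ m - p) := by
  have h1 := card_linearIndependent (K := ZMod p) (V := V) (k := 2) (by rw [hfr]; exact hm)
  rw [h1, Fin.prod_univ_two, hfr, ZMod.card]
  simp

/-- the fibre of `s ↦ span (range s)` over a plane `W` is the set of bases of `W` -/
noncomputable def fibreEquiv (W : Submodule (ZMod p) V) (hW : Module.finrank (ZMod p) W = 2) :
    {s : {s : Fin 2 → V // LinearIndependent (ZMod p) s} //
        Submodule.span (ZMod p) (Set.range s.1) = W} ≃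
      {t : Fin 2 → ↥W // LinearIndependent (ZMod p) t} where
  toFun s := ⟨fun i => ⟨s.1.1 i, s.2.le (Submodule.subset_span (Set.mem_range_self i))⟩,
    LinearIndependent.of_comp W.subtype s.1.2⟩
  invFun t := ⟨⟨fun i => (t.1 i : V), t.2.map' W.subtype (Submodule.ker_subtype W)⟩, by
    apply Submodule.eq_of_le_of_finrank_eq
    · rw [Submodule.span_le]
      rintro _ ⟨i, rfl⟩
      exact (t.1 i).2
    · have h1 := finrank_span_eq_card (R := ZMod p)
        (t.2.map' W.subtype (Submodule.ker_subtype W))
      rw [hW]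
      have h2 : Set.range (fun i => (t.1 i : V)) = Set.range (⇑W.subtype ∘ t.1) := rfl
      rw [h2, h1]
      simp⟩
  left_inv s := Subtype.ext (Subtype.ext rfl)
  right_inv t := Subtype.ext (funext fun i => Subtype.ext rfl)

/-- [CNT2] -/
theorem cnt2 {n : ℕ} (hV : Nat.card V = p ^ n) (hn : 2 ≤ n) :
    Nat.card {A : AddSubgroup V // Nat.card A = p ^ 2} * ((p ^ 2 - 1) * (p ^ 2 - p)) =
      (p ^ n - 1) * (p ^ n - p) := by
  classical
  have hp := (Fact.out : p.Prime)
  have hfr : Module.finrank (ZMod p) V = n := by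
    have h1 := Module.natCard_eq_pow_finrank (K := ZMod p) (V := V)
    rw [Nat.card_zmod, hV] at h1
    exact (Nat.pow_right_injective hp.two_le h1).symm
  have hLI := card_li_pairs (p := p) (V := V) hfr hn
  -- the planes
  have hXX : Nat.card {A : AddSubgroup V // Nat.card A = p ^ 2} =
      Nat.card {W : Submodule (ZMod p) V // Module.finrank (ZMod p) W = 2} := by
    refine Nat.card_congr (Equiv.subtypeEquiv (AddSubgroup.toZModSubmodule p).toEquiv ?_)
    intro A
    have h1 := Module.natCard_eq_pow_finrank (K := ZMod p) (V := ↥(AddSubgroup.toZModSubmodule p A))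
    rw [Nat.card_zmod] at h1
    have h2 : Nat.card ↥(AddSubgroup.toZModSubmodule p A) = Nat.card ↥A := rfl
    rw [h2] at h1
    constructor
    · intro h
      rw [h] at h1
      exact (Nat.pow_right_injective hp.two_le h1).symm
    · intro h
      have h3 : Module.finrank (ZMod p) ↥(AddSubgroup.toZModSubmodule p A) = 2 := h
      rw [h1, h3]
  rw [hXX, ← hLI]
  haveI : Fintype {W : Submodule (ZMod p) V // Module.finrank (ZMod p) W = 2} := Fintype.ofFinite _
  let f : {s : Fin 2 → V // LinearIndependent (ZMod p) s} →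
      {W : Submodule (ZMod p) V // Module.finrank (ZMod p) W = 2} := fun s =>
    ⟨Submodule.span (ZMod p) (Set.range s.1), by
      have h1 := finrank_span_eq_card (R := ZMod p) s.2
      simpa using h1⟩
  rw [Nat.card_congr (Equiv.sigmaFiberEquiv f).symm, Nat.card_sigma]
  have hfib : ∀ W : {W : Submodule (ZMod p) V // Module.finrank (ZMod p) W = 2},
      Nat.card {s // f s = W} = (p ^ 2 - 1) * (p ^ 2 - p) := by
    intro W
    have e1 : {s // f s = W} ≃ {s : {s : Fin 2 → V // LinearIndependent (ZMod p) s} //
        Submodule.span (ZMod p) (Set.range s.1) = W.1} :=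
      Equiv.subtypeEquivRight (fun s => Subtype.ext_iff)
    rw [Nat.card_congr (e1.trans (fibreEquiv W.1 W.2))]
    exact card_li_pairs (p := p) (V := ↥W.1) W.2 le_rfl
  rw [Finset.sum_congr rfl (fun W _ => hfib W), Finset.sum_const, Finset.card_univ,
    smul_eq_mul, Nat.card_eq_fintype_card]

end

end Cfsg.Agent.Lib.Helper74.SAF
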