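import Mathlib
import Cfsg.Agent.Lib.Helper49.SAF.Iface
import Cfsg.Agent.Lib.Helper74.SAF.Cnt2

/-!
# SAF (S4025), package [T2DIV]: transitivity on the subgroups of order `p ^ 2` forces
`(p ^ n - 1) * (p ^ n - p)` to divide `|ρ.range| * ((p ^ 2 - 1) * (p ^ 2 - p))`
-/

set_option autoImplicit false

universe u v

namespace Cfsg.Agent.Lib.Helper74.SAF

open Cfsg.Agent.Lib.Helper49.SAFI

/-- a transitive action of a finite group on a nonempty set: the size of the set divides the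
group order -/
theorem card_dvd_of_trans {G : Type*} {X : Type*} [Group G] [Finite G] [MulAction G X]
    [Nonempty X] (h : ∀ a b : X, ∃ g : G, g • a = b) : Nat.card X ∣ Nat.card G := by
  obtain ⟨x⟩ := ‹Nonempty X›
  haveI : MulAction.IsPretransitive G X := ⟨h⟩
  rw [← MulAction.index_stabilizer_of_transitive G x]
  exact Subgroup.index_dvd_card _

section

variable {p : ℕ} {V : Type u} [AddCommGroup V] [Module (ZMod p) V]

/-- a group of linear automorphisms acts on the additive subgroups of order `p ^ 2` -/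
@[instance_reducible] noncomputable def planeAct (S : Subgroup (V ≃ₗ[ZMod p] V)) :
    MulAction S {A : AddSubgroup V // Nat.card A = p ^ 2} where
  smul f A := ⟨A.1.map ((f : V ≃ₗ[ZMod p] V) : V →ₗ[ZMod p] V).toAddMonoidHom,
    (Nat.card_congr
      (A.1.equivMapOfInjective _ (f : V ≃ₗ[ZMod p] V).injective).toEquiv.symm).trans A.2⟩
  one_smul A := by
    apply Subtype.ext
    ext v
    change v ∈ A.1.map _ ↔ v ∈ A.1
    simp
  mul_smul f g A := by
    apply Subtype.ext
    ext v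
    change v ∈ A.1.map _ ↔ v ∈ (A.1.map _).map _
    simp only [AddSubgroup.mem_map]
    constructor
    · rintro ⟨w, hw, rfl⟩
      exact ⟨(g : V ≃ₗ[ZMod p] V) w, ⟨w, hw, rfl⟩, rfl⟩
    · rintro ⟨_, ⟨w, hw, rfl⟩, rfl⟩
      exact ⟨w, hw, rfl⟩

end

/-- [T2DIV] -/
theorem pkgT2Div : PkgT2Div.{u, v} := by
  intro p n _ V _ _ _ N _ _ ρ hT hV hn
  classical
  have hp := (Fact.out : p.Prime)
  have hcnt := cnt2 (p := p) (V := V) hV hn
  rw [← hcnt]
  apply Nat.mul_dvd_mul_right
  have hpos : 0 < (p ^ n - 1) * (p ^ n - p) := by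
    have h1 : p ^ 2 ≤ p ^ n := Nat.pow_le_pow_right hp.pos hn
    have h3 := hp.two_le
    have h2 : p < p ^ 2 := by nlinarith [hp.two_le]
    apply Nat.mul_pos <;> omega
  have hne : Nat.card {A : AddSubgroup V // Nat.card A = p ^ 2} ≠ 0 := by
    intro h0
    rw [h0, zero_mul] at hcnt
    omega
  haveI : Nonempty {A : AddSubgroup V // Nat.card A = p ^ 2} := (Nat.card_ne_zero.mp hne).1
  haveI : Finite ρ.range := Finite.of_surjective ρ.rangeRestrict ρ.rangeRestrict_surjective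
  refine @card_dvd_of_trans ρ.range {A : AddSubgroup V // Nat.card A = p ^ 2} _ _
    (planeAct ρ.range) _ ?_
  intro A B
  obtain ⟨g, hg⟩ := hT A.1 B.1 A.2 B.2
  refine ⟨⟨ρ g, g, rfl⟩, Subtype.ext ?_⟩
  ext w
  change w ∈ A.1.map ((ρ g : V ≃ₗ[ZMod p] V) : V →ₗ[ZMod p] V).toAddMonoidHom ↔ w ∈ B.1
  rw [AddSubgroup.mem_map]
  constructor
  · rintro ⟨v, hv, rfl⟩
    exact (hg v).mp hv
  · intro hw
    refine ⟨(ρ g).symm w, (hg _).mpr ?_, ?_⟩
    · rw [LinearEquiv.apply_symm_apply]; exact hw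
    · exact LinearEquiv.apply_symm_apply (ρ g) w

end Cfsg.Agent.Lib.Helper74.SAF
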